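import Mathlib
import Cfsg.Agent.R2.PX.A.A34
import Cfsg.Agent.R2.T1.Inf.Aut

/-!
# Pattern X, part A: the configuration (helper5)

* `contra` : `D(v i, v j) = 0` for all `i`, `j` is impossible (the root elements fixing the span of the `v i` lie in `H`);
* `a34` : the `v i` form a configuration.
-/

set_option autoImplicit false
set_option maxRecDepth 100000
set_option linter.unusedSectionVars false

namespace Cfsg.Agent.R2.PX.A4

open Cfsg Cfsg.Lie Module Matrix Equiv Equiv.Perm
open Cfsg.Agent.H943.E7V.Block (D1 rho)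
open Cfsg.Agent.H952.F4 (MaxAlt)
open Cfsg.Agent.R2.T1

universe u

variable {F : Type u} [Field F] [CharP F 5]

theorem three_ne : (3 : F) ≠ 0 := by
  intro h3
  have h5 : (5 : F) = 0 := five_zero
  exact two_ne (F := F) (by linear_combination h5 - h3)

theorem equi : Equi F := fun g x y => DD_equi g x y

/-- the coordinates of a vector orthogonal to a weight vector -/
theorem zero_of {b0 : D1} {y : D1 → F} (h : DD F (bs F b0) y = 0) {b : D1} (hb : p2 b b0 = -1) : y b = 0 := by
  have h1 : p2 b0 (op b) = 1 := by rw [p2_op', p2_comm, hb]; rfl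
  obtain ⟨r, hr, c, h4, hc⟩ := exists_mv h1
  have hr' : 125 - r < 126 := by omega
  have hinv : mv (125 - r) (nn b0) = some (nn (op b), c) := by
    rcases mv_spec hr (op b) with h5 | ⟨a', c', h5, -, -, h6⟩
    · rw [h5] at h4; exact absurd h4 (by simp)
    · rw [h5, Option.some.injEq, Prod.mk.injEq] at h4
      rw [← nn_inj h4.1, ← h4.2]
      exact h6
  have e1 := Tr.DD_entry (F := F) hr h4 (bs F b0) y
  have e2 := Tr.NM_bs (F := F) hinv
  rw [h, Matrix.zero_apply, e2, map_smul, LinearMap.smul_apply, sf_single, op_op, smul_eq_mul] at e1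
  have e3 : (-2 * ((c : F) * ((ep (op b) : ℤ) : F)) * (c : F)) * y b = 0 := by linear_combination -e1
  exact (mul_eq_zero.1 e3).resolve_left (mul_ne_zero (mul_ne_zero (neg_ne_zero.2 two_ne) (mul_ne_zero (cast_ne hc)
    (cast_ne (ep_sq _)))) (cast_ne hc))

/-- the third weight -/
def c0 : D1 := ⟨⟨228, by decide +kernel⟩, by decide +kernel⟩

theorem p2_c0 : p2 c0 topv = 1 := by
  rw [Comb.p2_vv]
  show Comb.vv (Comb.ent 228) (Comb.ent 238) = 1
  decide +kernel

theorem p2_c0' : p2 c0 w2 = -1 := by
  rw [Comb.p2_vv]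
  show Comb.vv (Comb.ent 228) (Comb.ent 237) = -1
  decide +kernel

variable {ψ : A8 →* Gh F} {v : Fin 8 → D1 → F}
  (act : ∀ (p : A8) (i : Fin 8), V F (ψ p) (v i) = v ((p : Perm (Fin 8)) i)) (hne : v 0 ≠ 0)
include act

theorem v_of (q : A8) {i j : Fin 8} {c : F} (h : v i = c • v j) : v ((q : Perm (Fin 8)) i) = c • v ((q : Perm (Fin 8)) j) := by
  rw [← act, ← act, h, map_smul]

include hne

theorem v_ne (i : Fin 8) : v i ≠ 0 := by
  intro h0
  by_cases hi : i = 0
  · rw [hi] at h0; exact hne h0
  · obtain ⟨q, g0, -⟩ := tr2 hi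
    have h1 := act q⁻¹ i
    rw [← g0, show ((q⁻¹ : A8) : Perm (Fin 8)) ((q : Perm (Fin 8)) 0) = 0 from (q : Perm (Fin 8)).symm_apply_apply 0, g0, h0,
      map_zero] at h1
    exact hne h1.symm

variable (hsum : ∑ i, v i = 0)
include hsum

theorem v_smul {i j : Fin 8} (hij : i ≠ j) (c : F) : v i ≠ c • v j := by
  intro h
  have key : ∀ k l m : Fin 8, [k, l, m].Nodup → v k = v l := by
    intro k l m hk
    obtain ⟨n, hn⟩ := W.exists_next [i, j] (by simp [hij]) (by simp)
    obtain ⟨q0, a0, a1, a2⟩ := tr3 hn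
    obtain ⟨q, b0, b1, b2⟩ := tr3 (i := k) (j := m) (l := l) (by
      simp only [List.nodup_cons, List.mem_cons, not_or, List.not_mem_nil, not_false_eq_true, List.nodup_nil, and_true] at hk ⊢
      tauto)
    obtain ⟨q', b0', b1', b2'⟩ := tr3 (i := l) (j := m) (l := k) (by
      simp only [List.nodup_cons, List.mem_cons, not_or, List.not_mem_nil, not_false_eq_true, List.nodup_nil, and_true] at hk ⊢
      tauto)
    have h01 : v 0 = c • v 1 := by
      have := v_of act q0⁻¹ h
      rw [← a0, ← a1, show ((q0⁻¹ : A8) : Perm (Fin 8)) ((q0 : Perm (Fin 8)) 0) = 0 from (q0 : Perm (Fin 8)).symm_apply_apply 0,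
        show ((q0⁻¹ : A8) : Perm (Fin 8)) ((q0 : Perm (Fin 8)) 1) = 1 from (q0 : Perm (Fin 8)).symm_apply_apply 1] at this
      exact this
    have e1 := v_of act q h01
    have e2 := v_of act q' h01
    rw [b0, b1] at e1
    rw [b0', b1'] at e2
    rw [e1, e2]
  have h0 := hsum
  rw [Fin.sum_univ_eight, key 1 0 2 (by decide), key 2 0 1 (by decide), key 3 0 1 (by decide), key 4 0 1 (by decide),
    key 5 0 1 (by decide), key 6 0 1 (by decide), key 7 0 1 (by decide)] at h0
  have h5 : (5 : F) = 0 := five_zero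
  have h8 : (3 : F) • v 0 = 0 := by
    linear_combination (norm := module) h0 - h5 • v 0
  exact hne ((smul_eq_zero_iff_right three_ne).1 h8)

theorem v_inj {i j : Fin 8} (h : v i = v j ∨ v i = - v j) : i = j ∧ v i = v j := by
  by_cases hij : i = j
  · exact ⟨hij, by rw [hij]⟩
  · exfalso
    rcases h with h | h
    · exact v_smul act hne hsum hij 1 (by rw [one_smul]; exact h)
    · exact v_smul act hne hsum hij (-1) (by rw [neg_one_smul]; exact h)

variable [Finite F] {H : Subgroup ↥(chevE7.group F)} {φ : A8 →* ↥(chevE7.group F)} (hM : MaxAlt H 8 φ) (hL : Lift φ ψ)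
  (hS : Stab (V F) H (Submodule.span F (Set.range v)))
include hM hL

/-- an element of the preimage of `H` fixing all `v i` is trivial -/
theorem eq_one {x : Gh F} (hx : ad F x ∈ H) (hv : ∀ i, V F x (v i) = v i) : x = 1 := by
  obtain ⟨σ, hσ⟩ := exists_perm (by norm_num) hM hx
  have hxi : ∀ i, V F x⁻¹ (v i) = v i := fun i => by
    rw [← hv i, V_inv, hv]
  have hcen : ∀ a, φ a * ad F x = ad F x * φ a := by
    intro a
    have hmem : σ * (a : Perm (Fin 8)) * σ⁻¹ ∈ alternatingGroup (Fin 8) := by
      have ha := a.2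
      rw [mem_alternatingGroup] at ha ⊢
      rw [Perm.sign_mul, Perm.sign_mul, ha, mul_one, Perm.sign_inv, Int.units_mul_self]
    set b : A8 := ⟨σ * a * σ⁻¹, hmem⟩ with hb
    have h1 := hσ a b rfl
    have h2 : ad F (x * ψ a * x⁻¹) = ad F (ψ b) := by
      rw [map_mul, map_mul, map_inv, hL, hL, h1]
    have h3 : ∀ i, v ((a : Perm (Fin 8)) i) = v ((b : Perm (Fin 8)) i) ∨ v ((a : Perm (Fin 8)) i) = - v ((b : Perm (Fin 8)) i) := by
      intro i
      have h4 : V F (x * ψ a * x⁻¹) (v i) = v ((a : Perm (Fin 8)) i) := by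
        rw [V_mul, V_mul, hxi, act, hv]
      rcases ad_eq_iff.1 h2 with h5 | h5
      · left
        rw [← h4, h5, act]
      · right
        rw [← h4, h5, LinearMap.neg_apply, act]
    have h4 : a = b := by
      apply Subtype.ext
      refine Equiv.ext fun i => (v_inj act hne hsum ?_).1
      exact h3 i
    rw [← h4] at h1
    rw [mul_inv_eq_iff_eq_mul] at h1
    exact h1.symm
  have h1 := centralizer_eq hM (by norm_num) hcen
  rcases ad_eq_one_iff.1 h1 with h2 | h2
  · exact V_eq_one_iff.1 h2
  · exfalso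
    have h3 := hv 0
    rw [h2, LinearMap.neg_apply] at h3
    have h4 : (2 : F) • v 0 = 0 := by
      have h5 : - v 0 = v 0 := h3
      rw [two_smul]
      nth_rewrite 1 [← h5]
      exact neg_add_cancel (v 0)
    exact hne ((smul_eq_zero_iff_right two_ne).1 h4)

include hS

/-- **not all `D(v i, v j)` vanish** -/
theorem contra (hr : ∀ i j, dd (v i) (v j) = 0) : False := by
  set W : Submodule F (D1 → F) := Submodule.span F (Set.range v) with hW
  have hmem : ∀ i, v i ∈ W := fun i => Submodule.subset_span ⟨i, rfl⟩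
  have hW0 : W ≠ ⊥ := fun h => hne (by
    have := hmem 0
    rw [h] at this
    exact (Submodule.mem_bot F).1 this)
  have hDD : ∀ i, ∀ w ∈ W, DD F (v i) w = 0 := by
    intro i w hw
    induction hw using Submodule.span_induction with
    | mem x hx =>
      obtain ⟨j, rfl⟩ := hx
      exact (dd_eq_zero_iff _ _).1 (hr i j)
    | zero => exact DD_zero_right _
    | add x y _ _ hx hy => rw [DD_add_right, hx, hy, add_zero]
    | smul c x _ hx => rw [DD_smul_right, hx, smul_zero]
  have hW1 : W ≠ ⊤ := by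
    intro h
    apply hne
    refine sf_nondeg' fun y => ?_
    have hy : y ∈ W := by rw [h]; trivial
    clear h
    induction hy using Submodule.span_induction with
    | mem x hx =>
      obtain ⟨j, rfl⟩ := hx
      exact om_zero act 0 j
    | zero => exact map_zero _
    | add x y _ _ hx hy => rw [map_add, hx, hy, add_zero]
    | smul c x _ hx => rw [map_smul, hx, smul_zero]
  obtain ⟨g, c, d, hc, hd, e1, e2⟩ := Tr.pair_orth equi two_ne three_ne (x := v 0) (y := v 1)
    ((dd_eq_zero_iff _ _).1 (hr 0 0)) ((dd_eq_zero_iff _ _).1 (hr 1 1)) hne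
    (fun c => v_smul act hne hsum (by decide) c) ((dd_eq_zero_iff _ _).1 (hr 0 1))
  have k1 : ∀ w ∈ W, DD F (bs F topv) (V F g w) = 0 := by
    intro w hw
    have h1 := (Tr.DD_V equi g).2 (hDD 0 w hw)
    rw [e1, DD_smul_left] at h1
    exact (smul_eq_zero_iff_right hc).1 h1
  have k2 : ∀ w ∈ W, DD F (bs F w2) (V F g w) = 0 := by
    intro w hw
    have h1 := (Tr.DD_V equi g).2 (hDD 1 w hw)
    rw [e2, DD_smul_left] at h1
    exact (smul_eq_zero_iff_right hd).1 h1
  obtain ⟨r, hr, n, hmv, hn⟩ := exists_mv (show p2 topv c0 = 1 by rw [p2_comm]; exact p2_c0)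
  -- the root element acts trivially
  have k3 : ∀ w ∈ W, NM F r *ᵥ (V F g w) = 0 := by
    intro w hw
    funext a
    rw [Pi.zero_apply]
    by_contra h0
    obtain ⟨b, m, h3, h4⟩ := NM_mulVec_ne h0
    obtain ⟨t1, t2⟩ := Tr.top_zero two_ne three_ne (k1 w hw)
    have q1 := p2_add hr hmv topv
    have q2 := p2_add hr h3 topv
    rw [p2_self, p2_c0] at q1
    have q3 : p2 a topv = p2 b topv + 2 := by linarith
    have q4 : p2 a topv = 3 := by
      rcases p2_cases b topv with q | q | q | q
      · rcases p2_cases a topv with q' | q' | q' | q' <;> linarith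
      · linarith
      · exact absurd (t1 b q) h4
      · have q5 := p2_eq_neg_three.1 q
        have q6 : b = op topv := by rw [q5, op_op]
        rw [q6] at h4
        exact absurd t2 h4
    have q5 := p2_eq_three.1 q4
    have q6 : b = c0 := by
      have inv : ∀ (b : D1) (m : ℤ), mv r (nn b) = some (nn topv, m) → mv (125 - r) (nn topv) = some (nn b, m) := by
        intro b m h
        rcases mv_spec hr b with h5 | ⟨a', c', h5, -, -, h6⟩
        · rw [h5] at h; exact absurd h (by simp)
        · rw [h5, Option.some.injEq, Prod.mk.injEq] at h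
          rw [← nn_inj h.1, ← h.2]
          exact h6
      rw [q5] at h3
      have i1 := inv b m h3
      have i2 := inv c0 n hmv
      rw [i1, Option.some.injEq, Prod.mk.injEq] at i2
      exact nn_inj i2.1
    rw [q6] at h4
    exact h4 (zero_of (k2 w hw) p2_c0')
  have k4 : ∀ w ∈ W, V F (g⁻¹ * xs F r 1 * g) w = w := by
    intro w hw
    rw [V_mul, V_mul, V_xs hr, k3 w hw, smul_zero, add_zero, V_inv]
  have h5 : ad F (g⁻¹ * xs F r 1 * g) ∈ H := blue hM.coatom hS hW0 hW1 fun w hw => by rw [k4 w hw]; exact hw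
  have h6 := eq_one act hne hsum hM hL h5 fun i => k4 _ (hmem i)
  have h7 : xs F r (1 : F) = 1 := by
    have : xs F r (1 : F) = g * (g⁻¹ * xs F r 1 * g) * g⁻¹ := by group
    rw [this, h6]
    group
  have h8 := V_xs (F := F) hr 1 (bs F c0)
  rw [h7, V_one, one_smul, Tr.NM_bs hmv] at h8
  have h9 : (n : F) • bs F topv = 0 := by
    have := h8.symm
    rwa [add_eq_left] at this
  have h10 := congrFun h9 topv
  rw [Pi.smul_apply, Tr.bs_same, smul_eq_mul, mul_one] at h10
  exact cast_ne hn h10

variable (han : ∀ z : chevE7.Idx → F, (∀ a : A8, (∀ i : Fin 8, ((a : Perm (Fin 8)) i).val < 4 ↔ i.val < 4) →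
  L F (ψ a) z = z) → kap F z z = 0 → z = 0)
include han

/-- **the configuration**, with the sum as a hypothesis -/
theorem config_of : Config F ψ v := by
  refine ⟨act, hsum, fun i => (dd_eq_zero_iff _ _).1 (pure_all act hsum han i), om_zero act, ?_⟩
  intro h0
  refine contra act hne hsum hM hL hS (rr_zero act hsum han ?_)
  rw [sf_swap, neg_eq_zero, ← kap_dd_dd] at h0
  rw [← ff_E act (i := 1) (j := 2) (k := 3) (l := 0) (by decide)]
  exact h0

end Cfsg.Agent.R2.PX.A4
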