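import Cfsg.Agent.R2.PX.A.El2
import Cfsg.Agent.R2.PX.A.Pat
import Cfsg.Agent.R2.PX.Kap

/-!
# Pattern X of S5771, Part A: anisotropy on the adjoint module (helper7)

* `PatX.ptV`, `PatX.ptL`;
* `aniso` : a vector of the adjoint module fixed by the even permutations preserving `{0, 1, 2, 3}` and isotropic for
  `kap` is zero.
-/

set_option autoImplicit false

namespace Cfsg.Agent.R2.PX.A

open Cfsg Cfsg.Lie Module
open Cfsg.Agent.R2.T1
open Cfsg.Agent.H952.F4 (ev es)
open Cfsg.Agent.H943.E7V.Block (D1 rho)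

universe u
variable {F : Type u} [Field F] {ψ : A8 →* Gh F}

theorem PatX.ptV (hP : PatX F ψ) : Pt (MonoidHom.comp (V F) ψ) 56 32 24 20 20 where
  dim := finrank_V
  c2 a ha := by rw [nn_one]; exact hP.v2 a ha
  c24 a ha := by rw [nn_one]; exact hP.v24 a ha
  c3 a ha := by rw [nn_one]; exact hP.v3 a ha
  c33 a ha := by rw [nn_one]; exact hP.v33 a ha

theorem PatX.ptL (hP : PatX F ψ) : Pt (MonoidHom.comp (L F) ψ) 133 69 69 43 43 where
  dim := finrank_L
  c2 a ha := by rw [nn_one]; exact hP.l2 a ha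
  c24 a ha := by rw [nn_one]; exact hP.l24 a ha
  c3 a ha := by rw [nn_one]; exact hP.l3 a ha
  c33 a ha := by rw [nn_one]; exact hP.l33 a ha

theorem three_ne [CharP F 5] : (3 : F) ≠ 0 := by
  intro h
  have h1 : ((3 : ℕ) : F) = 0 := by exact_mod_cast h
  rw [CharP.cast_eq_zero_iff F 5] at h1
  omega

theorem seven_ne [CharP F 5] : (7 : F) ≠ 0 := by
  intro h
  have h1 : ((7 : ℕ) : F) = 0 := by exact_mod_cast h
  rw [CharP.cast_eq_zero_iff F 5] at h1
  omega

/-- **anisotropy** -/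
theorem aniso [CharP F 5] (hP : PatX F ψ) {z : chevE7.Idx → F}
    (hz : ∀ a : A8, (∀ i : Fin 8, ((a : Equiv.Perm (Fin 8)) i).val < 4 ↔ i.val < 4) → L F (ψ a) z = z)
    (h0 : kap F z z = 0) : z = 0 :=
  anisoL (ρ := MonoidHom.comp (L F) ψ) (B := kap F) two_ne three_ne hP.ptL (fun g x y => kap_L (ψ g) x y)
    (fun _ h => kap_nondeg h) hz h0

end Cfsg.Agent.R2.PX.A
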