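import Cfsg.Agent.R2.PX.A.El

/-!
# Pattern X of S5771, Part A: the dimensions of the fixed spaces of some subgroups of `A₈`, part 2 (helper7)

* `goodL`, `anisoL` : anisotropy;
* `dimP` : `(0 1)(3 4)` acts trivially on the fixed space of `⟨(0 1 2), (3 4 5)⟩` for `(56, 32, 24, 20, 20)`;
* `dimE` : the regular group `2³` has no fixed vectors for `(56, 32, 24, 20, 20)`.
-/

set_option autoImplicit false
set_option maxRecDepth 100000

namespace Cfsg.Agent.R2.PX.A

open Equiv Module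

universe u v
variable {K : Type u} [Field K] {M : Type v} [AddCommGroup M] [Module K M]
variable {ρ : Representation K A8 M}

theorem goodL {B : M →ₗ[K] M →ₗ[K] K} (h2 : (2 : K) ≠ 0) (h3 : (3 : K) ≠ 0)
    (hB : ∀ g x y, B (ρ g x) (ρ g y) = B x y) : Good B ρ [s2, b2, b1, s1, a2, a1] :=
  good_three h3 hB (good_two h2 hB (good_two h2 hB (good_three h3 hB (good_two h2 hB (good_two h2 hB good_nil
    (by decide +kernel)) (by decide +kernel)) (by decide +kernel)) (by decide +kernel)) (by decide +kernel))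
    (by decide +kernel)

theorem dimL' [FiniteDimensional K M] (h2 : (2 : K) ≠ 0) (h3 : (3 : K) ≠ 0) (h : Pt ρ 133 69 69 43 43) :
    nn ρ [s2, b2, b1, s1, a2, a1] = 1 := by
  have h1 : nn ρ [s2, b2, b1, s1, a2, a1] = nn ρ [b2, b1, s2, s1, a2, a1] := nn_eq (by decide +kernel)
  rw [h1]
  exact dimL h2 h3 h

/-- `a` preserves `{0, 1, 2, 3}` -/
def P4 (a : A8) : Prop := ∀ i : Fin 8, ((a : Perm (Fin 8)) i).val < 4 ↔ i.val < 4

instance (a : A8) : Decidable (P4 a) := by unfold P4; infer_instance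

theorem p4_a1 : P4 a1 := by decide +kernel
theorem p4_a2 : P4 a2 := by decide +kernel
theorem p4_s1 : P4 s1 := by decide +kernel
theorem p4_b1 : P4 b1 := by decide +kernel
theorem p4_b2 : P4 b2 := by decide +kernel
theorem p4_s2 : P4 s2 := by decide +kernel

/-- **anisotropy** -/
theorem anisoL [FiniteDimensional K M] {B : M →ₗ[K] M →ₗ[K] K} (h2 : (2 : K) ≠ 0) (h3 : (3 : K) ≠ 0)
    (h : Pt ρ 133 69 69 43 43) (hB : ∀ g x y, B (ρ g x) (ρ g y) = B x y) (hnd : ∀ x, (∀ y, B x y = 0) → x = 0)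
    {z : M} (hz : ∀ a : A8, P4 a → ρ a z = z) (h0 : B z z = 0) : z = 0 := by
  refine aniso_of (goodL h2 h3 hB) (dimL' h2 h3 h) hnd ?_ h0
  intro g hg
  simp only [List.mem_cons, List.not_mem_nil, or_false] at hg
  rcases hg with h4 | h4 | h4 | h4 | h4 | h4 <;> rw [h4]
  · exact hz _ p4_s2
  · exact hz _ p4_b2
  · exact hz _ p4_b1
  · exact hz _ p4_s1
  · exact hz _ p4_a2
  · exact hz _ p4_a1

/-- `(0 1)(3 4)` acts trivially on the fixed space of `⟨(0 1 2), (3 4 5)⟩` -/
theorem dimP [FiniteDimensional K M] (h2 : (2 : K) ≠ 0) (h3 : (3 : K) ≠ 0) (h : Pt ρ 56 32 24 20 20) {v : M}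
    (h4 : ρ p1 v = v) (h5 : ρ p2 v = v) : ρ t2 v = v := by
  have h0 : nn ρ [] = 56 := by rw [nn_nil, h.dim]
  have ep1 := h.c3 p1 (by decide +kernel)
  have ep2 := h.c3 p2 (by decide +kernel)
  have ep3 := h.c33 (p1 * p2) (by decide +kernel)
  have ep4 := h.c33 (p1 * p2 * p2) (by decide +kernel)
  have et := h.c2 t2 (by decide +kernel)
  have k1 := n9 (ρ := ρ) h3 (l := []) (a := p1) (b := p2) (by decide +kernel)
  have k2 := nS3 (ρ := ρ) h2 h3 (l := []) (s := p1) (t := t2) (by decide +kernel)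
  have k3 := nS3 (ρ := ρ) h2 h3 (l := [p1]) (s := p2) (t := t2) (by decide +kernel)
  have k4 : nn ρ [t2, p2, p1] = nn ρ [p2, p1] := by omega
  have k5 : FX ρ [t2, p2, p1] = FX ρ [p2, p1] := by
    refine Submodule.eq_of_le_of_finrank_eq (FX_le (by decide +kernel)) k4
  have k6 : v ∈ FX ρ [p2, p1] := by
    intro g hg
    simp only [List.mem_cons, List.not_mem_nil, or_false] at hg
    rcases hg with rfl | rfl
    · exact h5
    · exact h4
  rw [← k5] at k6
  exact k6 t2 (List.mem_cons_self ..)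

/-- the regular group `2³` has no fixed vectors -/
theorem dimE [FiniteDimensional K M] (h2 : (2 : K) ≠ 0) (h : Pt ρ 56 32 24 20 20) {v : M}
    (h4 : ρ e1 v = v) (h5 : ρ e2 v = v) (h6 : ρ c1 v = v) : v = 0 := by
  have h0 : nn ρ [] = 56 := by rw [nn_nil, h.dim]
  have x1 := h.c24 e1 (by decide +kernel)
  have x2 := h.c24 e2 (by decide +kernel)
  have x3 := h.c24 c1 (by decide +kernel)
  have x4 := h.c24 (e1 * e2) (by decide +kernel)
  have x5 := h.c24 (e1 * c1) (by decide +kernel)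
  have x6 := h.c24 (e2 * c1) (by decide +kernel)
  have x7 := h.c24 (e1 * (e2 * c1)) (by decide +kernel)
  have k1 := n4 (ρ := ρ) h2 (l := []) (a := e1) (b := e2) (by decide +kernel)
  have k2 := n4 (ρ := ρ) h2 (l := []) (a := e1) (b := c1) (by decide +kernel)
  have k3 := n4 (ρ := ρ) h2 (l := []) (a := e1) (b := e2 * c1) (by decide +kernel)
  have k4 := n4 (ρ := ρ) h2 (l := [e1]) (a := e2) (b := c1) (by decide +kernel)
  have k5 : nn ρ [c1, e2, e1] = 0 := by omega
  have k6 : v ∈ FX ρ [c1, e2, e1] := by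
    intro g hg
    simp only [List.mem_cons, List.not_mem_nil, or_false] at hg
    rcases hg with rfl | rfl | rfl
    · exact h6
    · exact h5
    · exact h4
  rw [Submodule.finrank_eq_zero.1 k5] at k6
  exact k6

end Cfsg.Agent.R2.PX.A
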