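import Cfsg.Agent.R2.PX.A.Lin

/-!
# Pattern X of S5771, Part A: fixed spaces of lists of group elements (helper7)

* `FX ρ l` : the vectors fixed by the elements of the list `l`; `Stb l g` : a decidable condition for `g` to preserve
  `FX ρ l`;
* `n4`, `nS3`, `n9`, `nA4` : the formulas of `Lin` for group elements;
* `Good` : projections onto `FX ρ l` compatible with an invariant form.
-/

set_option autoImplicit false

namespace Cfsg.Agent.R2.PX.A

open Module

universe u v w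
variable {K : Type u} [Field K] {M : Type v} [AddCommGroup M] [Module K M] {G : Type w} [Group G]

/-- the vectors fixed by the elements of `l` -/
def FX (ρ : Representation K G M) (l : List G) : Submodule K M where
  carrier := {v | ∀ g ∈ l, ρ g v = v}
  add_mem' := by
    intro a b ha hb g hg
    rw [map_add, ha g hg, hb g hg]
  zero_mem' := by intro g _; rw [map_zero]
  smul_mem' := by
    intro c a ha g hg
    rw [map_smul, ha g hg]

variable {ρ : Representation K G M}

theorem mem_FX {l : List G} {v : M} : v ∈ FX ρ l ↔ ∀ g ∈ l, ρ g v = v := Iff.rfl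

theorem FX_nil : FX ρ [] = ⊤ := by
  rw [eq_top_iff]
  intro v _ g hg
  simp at hg

theorem FX_cons (g : G) (l : List G) : FX ρ (g :: l) = FX ρ l ⊓ fx (ρ g) := by
  ext v
  rw [Submodule.mem_inf, mem_FX, mem_FX, mem_fx]
  simp only [List.mem_cons, forall_eq_or_imp]
  exact and_comm

/-- the elements of `l'` are products of two elements of `1 :: l` -/
def Sb (l l' : List G) : Prop := ∀ h ∈ l', ∃ x ∈ (1 : G) :: l, ∃ y ∈ (1 : G) :: l, h = x * y

instance [DecidableEq G] (l l' : List G) : Decidable (Sb l l') := by unfold Sb; infer_instance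

theorem fix_one_cons {l : List G} {v : M} (hv : v ∈ FX ρ l) {x : G} (hx : x ∈ (1 : G) :: l) : ρ x v = v := by
  rcases List.mem_cons.1 hx with rfl | hx
  · rw [map_one]; rfl
  · exact hv x hx

theorem FX_le {l l' : List G} (h : Sb l l') : FX ρ l ≤ FX ρ l' := by
  intro v hv g hg
  obtain ⟨x, hx, y, hy, rfl⟩ := h g hg
  rw [map_mul, Module.End.mul_apply, fix_one_cons hv hy, fix_one_cons hv hx]

theorem FX_eq {l l' : List G} (h : Sb l l') (h' : Sb l' l) : FX ρ l = FX ρ l' := le_antisymm (FX_le h) (FX_le h')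

/-- `g` normalises the subgroup generated by `l` -/
def Stb (l : List G) (g : G) : Prop := Sb l (l.map fun h => g⁻¹ * h * g)

instance [DecidableEq G] (l : List G) (g : G) : Decidable (Stb l g) := by unfold Stb; infer_instance

theorem Stb.mem {l : List G} {g : G} (h : Stb l g) {v : M} (hv : v ∈ FX ρ l) : ρ g v ∈ FX ρ l := by
  intro x hx
  have h1 := FX_le (ρ := ρ) h hv (g⁻¹ * x * g) (List.mem_map.2 ⟨x, hx, rfl⟩)
  calc ρ x (ρ g v) = ρ (x * g) v := by rw [map_mul]; rfl
    _ = ρ (g * (g⁻¹ * x * g)) v := by congr 2; group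
    _ = ρ g (ρ (g⁻¹ * x * g) v) := by rw [map_mul]; rfl
    _ = ρ g v := by rw [h1]

/-- conditions for a four-group -/
def C4 (l : List G) (a b : G) : Prop := a * a = 1 ∧ b * b = 1 ∧ a * b = b * a ∧ Stb l a ∧ Stb l b

instance [DecidableEq G] (l : List G) (a b : G) : Decidable (C4 l a b) := by unfold C4; infer_instance

/-- conditions for a symmetric group -/
def CS3 (l : List G) (s t : G) : Prop := s * s * s = 1 ∧ t * t = 1 ∧ t * s = s * s * t ∧ Stb l s ∧ Stb l t

instance [DecidableEq G] (l : List G) (a b : G) : Decidable (CS3 l a b) := by unfold CS3; infer_instance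

/-- conditions for a group `3²` -/
def C9 (l : List G) (a b : G) : Prop := a * a * a = 1 ∧ b * b * b = 1 ∧ a * b = b * a ∧ Stb l a ∧ Stb l b

instance [DecidableEq G] (l : List G) (a b : G) : Decidable (C9 l a b) := by unfold C9; infer_instance

/-- conditions for `A₄` -/
def CA4 (l : List G) (a b s : G) : Prop := a * a = 1 ∧ b * b = 1 ∧ s * s * s = 1 ∧ a * b = b * a ∧ s * a = b * s ∧
  s * b = a * b * s ∧ Stb l a ∧ Stb l b ∧ Stb l s

instance [DecidableEq G] (l : List G) (a b s : G) : Decidable (CA4 l a b s) := by unfold CA4; infer_instance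

theorem ρ_two {a : G} (h : a * a = 1) (v : M) : ρ a (ρ a v) = v := by
  rw [← Module.End.mul_apply, ← map_mul, h, map_one]; rfl

theorem ρ_three {a : G} (h : a * a * a = 1) (v : M) : ρ a (ρ a (ρ a v)) = v := by
  have h1 := congrArg (fun g => ρ g v) h
  simpa only [map_mul, Module.End.mul_apply, map_one, Module.End.one_apply] using h1

theorem ρ_comm {a b : G} (h : a * b = b * a) (v : M) : ρ a (ρ b v) = ρ b (ρ a v) := by
  rw [← Module.End.mul_apply, ← Module.End.mul_apply, ← map_mul, ← map_mul, h]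

/-- the dimension of the fixed space -/
noncomputable def nn (ρ : Representation K G M) (l : List G) : ℕ := finrank K ↥(FX ρ l)

theorem nn_nil : nn ρ [] = finrank K M := by
  rw [nn, FX_nil, finrank_top]

theorem nn_one (g : G) : nn ρ [g] = finrank K ↥(Module.End.eigenspace (ρ g) 1) := by
  rw [nn, FX_cons, FX_nil, top_inf_eq, fx]

theorem nn_eq {l l' : List G} (h : Sb l l' ∧ Sb l' l) : nn ρ l = nn ρ l' := by
  rw [nn, FX_eq h.1 h.2, nn]

variable [FiniteDimensional K M]

theorem nn_le {l l' : List G} (h : Sb l l') : nn ρ l ≤ nn ρ l' := Submodule.finrank_mono (FX_le h)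

theorem n4 (h2 : (2 : K) ≠ 0) {l : List G} {a b : G} (h : C4 l a b) :
    nn ρ (a :: l) + nn ρ (b :: l) + nn ρ (a * b :: l) = nn ρ l + 2 * nn ρ (b :: a :: l) := by
  obtain ⟨ha, hb, hab, sa, sb⟩ := h
  have h1 := four_group h2 (FX ρ l) (A := ρ a) (B := ρ b) (ρ_two ha) (ρ_two hb) (ρ_comm hab) (fun u hu => sa.mem hu)
    (fun u hu => sb.mem hu)
  rw [← map_mul] at h1
  rw [← FX_cons, ← FX_cons, ← FX_cons, ← FX_cons] at h1
  exact h1

theorem nS3 (h2 : (2 : K) ≠ 0) (h3 : (3 : K) ≠ 0) {l : List G} {s t : G} (h : CS3 l s t) :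
    2 * nn ρ (t :: l) + nn ρ (s :: l) = 2 * nn ρ (t :: s :: l) + nn ρ l := by
  obtain ⟨hs, ht, hst, ss, st⟩ := h
  have h1 := sym3 h3 h2 (FX ρ l) (S := ρ s) (T := ρ t) (ρ_three hs) (ρ_two ht) (fun v => by
    have h1 := congrArg (fun g => ρ g v) hst
    simpa only [map_mul, Module.End.mul_apply] using h1) (fun u hu => ss.mem hu) (fun u hu => st.mem hu)
  rw [← FX_cons, ← FX_cons, ← FX_cons] at h1
  exact h1

theorem n9 (h3 : (3 : K) ≠ 0) {l : List G} {a b : G} (h : C9 l a b) :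
    nn ρ (a :: l) + nn ρ (b :: l) + nn ρ (a * b :: l) + nn ρ (a * b * b :: l) = nn ρ l + 3 * nn ρ (b :: a :: l) := by
  obtain ⟨ha, hb, hab, sa, sb⟩ := h
  have h1 := nine h3 (FX ρ l) (A := ρ a) (B := ρ b) (ρ_three ha) (ρ_three hb) (ρ_comm hab) (fun u hu => sa.mem hu)
    (fun u hu => sb.mem hu)
  rw [← map_mul, ← map_mul] at h1
  rw [← FX_cons, ← FX_cons, ← FX_cons, ← FX_cons, ← FX_cons] at h1
  exact h1

theorem nA4 (h2 : (2 : K) ≠ 0) {l : List G} {a b s : G} (h : CA4 l a b s) :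
    3 * nn ρ (b :: a :: s :: l) + nn ρ l = 3 * nn ρ (s :: l) + nn ρ (b :: a :: l) := by
  obtain ⟨ha, hb, hs, hab, hsa, hsb, sa, sb, ss⟩ := h
  have h1 := alt4 h2 (FX ρ l) (A := ρ a) (B := ρ b) (S := ρ s) (ρ_two ha) (ρ_two hb) (ρ_three hs) (ρ_comm hab)
    (fun v => by rw [← Module.End.mul_apply, ← Module.End.mul_apply, ← map_mul, ← map_mul, hsa])
    (fun v => by
      have h1 := congrArg (fun g => ρ g v) hsb
      simpa only [map_mul, Module.End.mul_apply] using h1) (fun u hu => sa.mem hu) (fun u hu => sb.mem hu)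
    (fun u hu => ss.mem hu)
  rw [← FX_cons, ← FX_cons, ← FX_cons, ← FX_cons, ← FX_cons] at h1
  exact h1

/-- conjugation -/
theorem nn_conj (l : List G) (g : G) : nn ρ (l.map fun h => g * h * g⁻¹) = nn ρ l := by
  have key : ∀ (l : List G) (g : G), nn ρ l ≤ nn ρ (l.map fun h => g * h * g⁻¹) := by
    intro l g
    refine finrank_le_of _ _ (ρ g) ?_ (fun u _ h => ?_)
    · intro u hu x hx
      obtain ⟨y, hy, rfl⟩ := List.mem_map.1 hx
      calc ρ (g * y * g⁻¹) (ρ g u) = ρ (g * y * g⁻¹ * g) u := by rw [map_mul _ (g * y * g⁻¹) g]; rfl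
        _ = ρ (g * y) u := by congr 2; group
        _ = ρ g (ρ y u) := by rw [map_mul]; rfl
        _ = ρ g u := by rw [hu y hy]
    · have h1 : ρ g⁻¹ (ρ g u) = u := by
        rw [← Module.End.mul_apply, ← map_mul, inv_mul_cancel, map_one]; rfl
      rw [← h1, h, map_zero]
  apply le_antisymm _ (key l g)
  have h1 := key (l.map fun h => g * h * g⁻¹) g⁻¹
  have h2 : (l.map fun h => g * h * g⁻¹).map (fun h => g⁻¹ * h * g⁻¹⁻¹) = l := by
    rw [List.map_map]
    have h3 : ((fun h => g⁻¹ * h * g⁻¹⁻¹) ∘ fun h => g * h * g⁻¹) = (id : G → G) := by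
      funext x
      show g⁻¹ * (g * x * g⁻¹) * g⁻¹⁻¹ = x
      group
    rw [h3, List.map_id]
  rwa [h2] at h1

/-! ### invariant forms -/

variable (B : M →ₗ[K] M →ₗ[K] K)

omit [FiniteDimensional K M] in
/-- a map onto `FX ρ l` compatible with the form -/
def Good (ρ : Representation K G M) (l : List G) : Prop := ∃ e : Module.End K M, (∀ x, e x ∈ FX ρ l) ∧
  ∀ u ∈ FX ρ l, ∀ x, B u (e x) = B u x

variable {B}

omit [FiniteDimensional K M] in
theorem good_nil : Good B ρ [] := ⟨1, fun x g hg => by simp at hg, fun _ _ _ => rfl⟩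

omit [FiniteDimensional K M] in
theorem form_fix (hB : ∀ g x y, B (ρ g x) (ρ g y) = B x y) {g : G} {u : M} (hu : ρ g u = u) (x : M) :
    B u (ρ g x) = B u x := by
  have h := hB g u x
  rwa [hu] at h

omit [FiniteDimensional K M] in
theorem good_two (h2 : (2 : K) ≠ 0) (hB : ∀ g x y, B (ρ g x) (ρ g y) = B x y) {l : List G} (h : Good B ρ l) {a : G}
    (ha : a * a = 1 ∧ Stb l a) : Good B ρ (a :: l) := by
  obtain ⟨e, he, he'⟩ := h
  obtain ⟨ha, sa⟩ := ha
  refine ⟨(2 : K)⁻¹ • (e + ρ a * e), fun x => ?_, fun u hu x => ?_⟩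
  · show (2 : K)⁻¹ • (e x + ρ a (e x)) ∈ _
    rw [FX_cons]
    refine ⟨(FX ρ l).smul_mem _ ((FX ρ l).add_mem (he x) (sa.mem (he x))), mem_fx.2 ?_⟩
    rw [map_smul, map_add, ρ_two ha, add_comm]
  · rw [FX_cons] at hu
    show B u ((2 : K)⁻¹ • (e x + ρ a (e x))) = B u x
    rw [map_smul, map_add, form_fix hB (mem_fx.1 hu.2), he' u hu.1, ← two_smul K, smul_smul, inv_mul_cancel₀ h2,
      one_smul]

omit [FiniteDimensional K M] in
theorem good_three (h3 : (3 : K) ≠ 0) (hB : ∀ g x y, B (ρ g x) (ρ g y) = B x y) {l : List G} (h : Good B ρ l) {a : G}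
    (ha : a * a * a = 1 ∧ Stb l a) : Good B ρ (a :: l) := by
  obtain ⟨e, he, he'⟩ := h
  obtain ⟨ha, sa⟩ := ha
  refine ⟨(3 : K)⁻¹ • (e + ρ a * e + ρ a * (ρ a * e)), fun x => ?_, fun u hu x => ?_⟩
  · show (3 : K)⁻¹ • (e x + ρ a (e x) + ρ a (ρ a (e x))) ∈ _
    rw [FX_cons]
    refine ⟨(FX ρ l).smul_mem _ ((FX ρ l).add_mem ((FX ρ l).add_mem (he x) (sa.mem (he x)))
      (sa.mem (sa.mem (he x)))), mem_fx.2 ?_⟩
    rw [map_smul, map_add, map_add, ρ_three ha]
    congr 1
    abel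
  · rw [FX_cons] at hu
    show B u ((3 : K)⁻¹ • (e x + ρ a (e x) + ρ a (ρ a (e x)))) = B u x
    rw [map_smul, map_add, map_add, form_fix hB (mem_fx.1 hu.2), form_fix hB (mem_fx.1 hu.2),
      form_fix hB (mem_fx.1 hu.2), he' u hu.1]
    have h4 : B u x + B u x + B u x = (3 : K) * B u x := by ring
    rw [h4, smul_eq_mul, ← mul_assoc, inv_mul_cancel₀ h3, one_mul]

/-- **anisotropy** of one-dimensional fixed spaces -/
theorem aniso_of {l : List G} (h : Good B ρ l) (h1 : nn ρ l = 1) (hnd : ∀ x, (∀ y, B x y = 0) → x = 0) {z : M}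
    (hz : z ∈ FX ρ l) (h0 : B z z = 0) : z = 0 := by
  by_contra hne
  apply hne
  apply hnd
  intro y
  obtain ⟨e, he, he'⟩ := h
  rw [← he' z hz]
  have h3 : Module.Finite K ↥(FX ρ l) := inferInstance
  have h4 : ((⟨z, hz⟩ : ↥(FX ρ l)) : ↥(FX ρ l)) ≠ 0 := fun h5 => hne (congrArg Subtype.val h5)
  obtain ⟨c, hc⟩ := exists_smul_eq_of_finrank_eq_one (K := K) h1 h4 ⟨e y, he y⟩
  have h5 : c • z = e y := congrArg Subtype.val hc
  rw [← h5, map_smul, h0, smul_zero]

end Cfsg.Agent.R2.PX.A
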