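import Cfsg.Agent.R2.PX.A.St
import Cfsg.Agent.R2.PX.A.A34c
import Cfsg.Agent.R2.PX.C.Main

/-!
# Pattern X of S5771: the contradiction (helper7)

* `partA` : the configuration;
* `no_patX` : the pattern `X` does not occur.
-/

set_option autoImplicit false

namespace Cfsg.Agent.R2.PX.A

open Cfsg Cfsg.Lie Module Equiv
open Cfsg.Agent.R2.T1
open Cfsg.Agent.H952.F4 (ev es MaxAlt)
open Cfsg.Agent.H943.E7V.Block (D1 rho)

universe u
variable {F : Type u} [Field F] [Finite F] [CharP F 5] {H : Subgroup ↥(chevE7.group F)}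
  {φ : ↥(alternatingGroup (Fin 8)) →* ↥(chevE7.group F)} {ψ : ↥(alternatingGroup (Fin 8)) →* Gh F}

/-- **the configuration** -/
theorem partA (hM : MaxAlt H 8 φ) (hL : Lift φ ψ) (hP : PatX F ψ) :
    ∃ v : Fin 8 → D1 → F, Config F ψ v ∧ Stab (V F) H (Submodule.span F (Set.range v)) := by
  obtain ⟨y, hy0, hy⟩ := hP.seven
  obtain ⟨v, hv7, hv, hS⟩ := exists_stab hM hL hy0 hy
  have hv0 : v 0 ≠ 0 := by
    obtain ⟨g, hg⟩ := trL (l := [0]) (l' := [7]) (by simp) (by simp) rfl (by simp)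
    have hg' : (g : Perm (Fin 8)) 0 = 7 := by simpa using hg
    intro h
    apply hv7
    rw [← hg', ← hv, h, map_zero]
  exact ⟨v, a3a4 hM hL hP v hv hv0 hS, hS⟩

/-- **the pattern `X` does not occur** -/
theorem no_patX (hM : MaxAlt H 8 φ) (hL : Lift φ ψ) : ¬ PatX F ψ := by
  intro hP
  obtain ⟨v, hv, hS⟩ := partA hM hL hP
  exact C.no_cfg hM.coatom hv.cfg hS

end Cfsg.Agent.R2.PX.A
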