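import Cfsg.Agent.R2.PX.A.Seven
import Cfsg.Agent.R2.T1.Inf.Cnt
import Cfsg.Agent.StandardComponent.AltAut

/-!
# Pattern X of S5771, Part A: the stability of the span (helper7)

* `conj_perm` : the preimage of `H` acts on `ψ(A₈)` by permutations;
* `exists_stab` : translates of a suitable fixed vector of `A₇` span an `H`-stable subspace.
-/

set_option autoImplicit false

namespace Cfsg.Agent.R2.PX.A

open Cfsg Cfsg.Lie Module Equiv
open Cfsg.Agent.R2.T1
open Cfsg.Agent.H952.F4 (ev es MaxAlt)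
open Cfsg.Agent.H943.E7V.Block (D1 rho)

universe u
variable {F : Type u} [Field F] {H : Subgroup ↥(chevE7.group F)} {φ : A8 →* ↥(chevE7.group F)} {ψ : A8 →* Gh F}

/-- two homomorphisms with the same image in the adjoint group are equal -/
theorem hom_eq {θ₁ θ₂ : A8 →* Gh F} (h : ∀ a, ad F (θ₁ a) = ad F (θ₂ a)) : θ₁ = θ₂ := by
  have hz : ∀ a, ad F (θ₁ a * (θ₂ a)⁻¹) = 1 := fun a => by rw [map_mul, map_inv, h, mul_inv_cancel]
  let z : A8 →* Gh F := MonoidHom.mk' (fun a => θ₁ a * (θ₂ a)⁻¹) fun a b => by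
    have h1 := ker_comm (hz b) (θ₂ a)⁻¹
    calc θ₁ (a * b) * (θ₂ (a * b))⁻¹ = θ₁ a * ((θ₁ b * (θ₂ b)⁻¹) * (θ₂ a)⁻¹) := by
          rw [map_mul, map_mul, mul_inv_rev]; group
      _ = θ₁ a * ((θ₂ a)⁻¹ * (θ₁ b * (θ₂ b)⁻¹)) := by rw [h1]
      _ = θ₁ a * (θ₂ a)⁻¹ * (θ₁ b * (θ₂ b)⁻¹) := by group
  have hz' : ∀ a, z a = θ₁ a * (θ₂ a)⁻¹ := fun _ => rfl
  have h2 : commutator A8 ≤ z.ker := by
    rw [commutator_def, Subgroup.commutator_le]
    intro a _ b _
    rw [MonoidHom.mem_ker, map_commutatorElement, commutatorElement_eq_one_iff_mul_comm]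
    exact ker_comm (by rw [hz']; exact hz b) _
  rw [alt_perfect (by norm_num), top_le_iff] at h2
  refine MonoidHom.ext fun a => ?_
  have h3 : a ∈ z.ker := by rw [h2]; trivial
  rw [MonoidHom.mem_ker, hz'] at h3
  exact mul_inv_eq_one.1 h3

/-- conjugation by a permutation -/
def cj (σ : Perm (Fin 8)) (a : A8) : A8 := ⟨σ * a * σ⁻¹, by
  have h := Perm.mem_alternatingGroup.1 a.2
  rw [Perm.mem_alternatingGroup, Perm.sign_mul, Perm.sign_mul, h, mul_one, Perm.sign_inv, Int.units_mul_self]⟩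

theorem cj_coe (σ : Perm (Fin 8)) (a : A8) : (cj σ a : Perm (Fin 8)) = σ * a * σ⁻¹ := rfl

theorem cj_mul (σ τ : Perm (Fin 8)) (a : A8) : cj (σ * τ) a = cj σ (cj τ a) := Subtype.ext (by
  rw [cj_coe, cj_coe, cj_coe]; group)

theorem cj_self (b a : A8) : cj (b : Perm (Fin 8)) a = b * a * b⁻¹ := rfl

theorem cj_one (a : A8) : cj 1 a = a := Subtype.ext (by rw [cj_coe]; group)

/-- the elements of `H` act on `A₈` as permutations (helper11's `T1.exists_perm`) -/
theorem exists_perm8 (hM : MaxAlt H 8 φ) {h : ↥(chevE7.group F)} (hh : h ∈ H) :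
    ∃ σ : Perm (Fin 8), ∀ a b : A8, (b : Perm (Fin 8)) = σ * a * σ⁻¹ → h * φ a * h⁻¹ = φ b := by
  have hex : ∀ a, ∃ b, φ b = h * φ a * h⁻¹ := fun a => hM.norm h hh _ ⟨a, rfl⟩
  choose f hf using hex
  let e0 : A8 →* A8 := MonoidHom.mk' f fun a b => hM.inj (by
    rw [hf, map_mul, map_mul, hf, hf]; group)
  have he0 : ∀ a, φ (e0 a) = h * φ a * h⁻¹ := hf
  have hinj : Function.Injective e0 := by
    intro a b hab
    apply hM.inj
    have h1 : h * φ a * h⁻¹ = h * φ b * h⁻¹ := by rw [← he0, ← he0, hab]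
    exact mul_left_cancel (mul_right_cancel h1)
  let e : MulAut A8 := MulEquiv.ofBijective e0 (Finite.injective_iff_bijective.1 hinj)
  obtain ⟨θ, hθ⟩ := Cfsg.Agent.StandardComponent.AltAut.exists_autHom 8 (by norm_num)
  refine ⟨θ e, fun a b hb => ?_⟩
  have h1 : e a = b := by
    apply Subtype.ext
    rw [hθ e a, hb]
  rw [← h1, ← he0]
  rfl

/-- **the preimage of `H` acts on `ψ(A₈)` by permutations** -/
theorem conj_perm (hM : MaxAlt H 8 φ) (hL : Lift φ ψ) {g : Gh F} (hg : ad F g ∈ H) :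
    ∃ σ : Perm (Fin 8), ∀ a : A8, g * ψ a * g⁻¹ = ψ (cj σ a) := by
  obtain ⟨σ, hσ⟩ := exists_perm8 hM hg
  refine ⟨σ, ?_⟩
  have h1 : (MulAut.conj g).toMonoidHom.comp ψ = ψ.comp (MonoidHom.mk' (cj σ) fun a b => Subtype.ext (by
      show σ * (a * b : Perm (Fin 8)) * σ⁻¹ = (σ * a * σ⁻¹) * (σ * b * σ⁻¹)
      group)) := by
    apply hom_eq
    intro a
    show ad F (g * ψ a * g⁻¹) = ad F (ψ (cj σ a))
    rw [map_mul, map_mul, map_inv, hL, hL]
    exact hσ a (cj σ a) rfl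
  exact fun a => DFunLike.congr_fun h1 a

/-- elements centralizing `ψ(A₈)` -/
theorem cent_one (hM : MaxAlt H 8 φ) (hL : Lift φ ψ) {g : Gh F} (h : ∀ a, g * ψ a * g⁻¹ = ψ a) : ad F g = 1 := by
  apply centralizer_eq hM (by norm_num)
  intro a
  rw [← hL, ← map_mul, ← map_mul]
  congr 1
  exact (mul_inv_eq_iff_eq_mul.1 (h a)).symm

/-- the centre acts as `±1` -/
theorem V_pm {g : Gh F} (h : ad F g = 1) : ∃ e : F, e * e = 1 ∧ ∀ v, V F g v = e • v := by
  rcases ad_eq_one_iff.1 h with h1 | h1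
  · exact ⟨1, one_mul 1, fun v => by rw [h1, one_smul]; rfl⟩
  · exact ⟨-1, by ring, fun v => by rw [h1, neg_smul, one_smul]; rfl⟩

/-- **the span of the translates of a suitable vector is stable** -/
theorem exists_stab [CharP F 5] (hM : MaxAlt H 8 φ) (hL : Lift φ ψ) {y : D1 → F} (hy0 : y ≠ 0)
    (hy : ∀ g : A8, (g : Perm (Fin 8)) 7 = 7 → V F (ψ g) y = y) :
    ∃ v : Fin 8 → D1 → F, v 7 ≠ 0 ∧ (∀ (p : A8) (i : Fin 8), V F (ψ p) (v i) = v ((p : Perm (Fin 8)) i)) ∧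
      Stab (V F) H (Submodule.span F (Set.range v)) := by
  have Vm : ∀ (a b : Gh F) (w : D1 → F), V F (a * b) w = V F a (V F b w) := fun a b w => by rw [map_mul]; rfl
  -- reduction to the translates
  have red : ∀ v : Fin 8 → D1 → F, (∀ g : Gh F, ad F g ∈ H → ∀ i, ∃ (j : Fin 8) (c : F), V F g (v i) = c • v j) →
      Stab (V F) H (Submodule.span F (Set.range v)) := by
    intro v hv g hg w hw
    induction hw using Submodule.span_induction with
    | mem x hx =>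
      obtain ⟨i, rfl⟩ := hx
      obtain ⟨j, c, h⟩ := hv g hg i
      rw [h]
      exact Submodule.smul_mem _ _ (Submodule.subset_span ⟨j, rfl⟩)
    | zero => rw [map_zero]; exact zero_mem _
    | add a b _ _ ha hb => rw [map_add]; exact add_mem ha hb
    | smul t a _ ha => rw [map_smul]; exact Submodule.smul_mem _ _ ha
  by_cases hcase : ∀ g : Gh F, ad F g ∈ H → ∃ a : A8, ad F g = φ a
  · -- `H = φ(A₈)`
    obtain ⟨v, hv7, hv⟩ := family1 (ρ := MonoidHom.comp (V F) ψ) hy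
    refine ⟨v, by rw [hv7]; exact hy0, hv, red v fun g hg i => ?_⟩
    obtain ⟨a, ha⟩ := hcase g hg
    obtain ⟨e, -, he⟩ := V_pm (g := (ψ a)⁻¹ * g) (by rw [map_mul, map_inv, hL, ha, inv_mul_cancel])
    refine ⟨(a : Perm (Fin 8)) i, e, ?_⟩
    have h1 : g = ψ a * ((ψ a)⁻¹ * g) := by group
    rw [h1, Vm, he, map_smul]
    congr 1
    exact hv a i
  · push Not at hcase
    obtain ⟨g0, hg0, hg0'⟩ := hcase
    obtain ⟨σ0, hσ0⟩ := conj_perm hM hL hg0
    -- even permutations come from `A₈`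
    have even_case : ∀ g : Gh F, ∀ σ : Perm (Fin 8), (∀ a : A8, g * ψ a * g⁻¹ = ψ (cj σ a)) → Perm.sign σ = 1 →
        ∃ a : A8, (a : Perm (Fin 8)) = σ ∧ ad F ((ψ a)⁻¹ * g) = 1 := by
      intro g σ hσ hs
      refine ⟨⟨σ, Perm.mem_alternatingGroup.2 hs⟩, rfl, cent_one hM hL fun a => ?_⟩
      set b : A8 := ⟨σ, Perm.mem_alternatingGroup.2 hs⟩ with hb
      have h1 : (ψ b)⁻¹ * g * ψ a * ((ψ b)⁻¹ * g)⁻¹ = (ψ b)⁻¹ * (g * ψ a * g⁻¹) * ψ b := by group
      rw [h1, hσ, ← map_inv, ← map_mul, ← map_mul]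
      congr 1
      apply Subtype.ext
      show (σ⁻¹ * (σ * a * σ⁻¹) * σ : Perm (Fin 8)) = a
      group
    have hs0 : Perm.sign σ0 = -1 := by
      rcases Int.units_eq_one_or (Perm.sign σ0) with h | h
      · exfalso
        obtain ⟨a, -, ha⟩ := even_case g0 σ0 hσ0 h
        apply hg0' a
        rw [map_mul, map_inv, inv_mul_eq_one] at ha
        rw [← ha, hL]
      · exact h
    set τ : Perm (Fin 8) := swap 0 1 with hτ
    have hτs : Perm.sign τ = -1 := Perm.sign_swap (by decide)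
    have hτ7 : τ 7 = 7 := by decide
    set b : A8 := ⟨τ * σ0⁻¹, by
      rw [Perm.mem_alternatingGroup, Perm.sign_mul, Perm.sign_inv, hs0, hτs]; rfl⟩ with hb
    set t : Gh F := ψ b * g0 with ht
    have htc : ∀ a : A8, t * ψ a * t⁻¹ = ψ (cj τ a) := by
      intro a
      have h1 : t * ψ a * t⁻¹ = ψ b * (g0 * ψ a * g0⁻¹) * (ψ b)⁻¹ := by rw [ht]; group
      rw [h1, hσ0, ← map_inv, ← map_mul, ← map_mul]
      congr 1
      apply Subtype.ext
      show (τ * σ0⁻¹ * (σ0 * a * σ0⁻¹) * (τ * σ0⁻¹)⁻¹ : Perm (Fin 8)) = τ * a * τ⁻¹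
      group
    have htH : ad F t ∈ H := by
      rw [ht, map_mul, hL]
      exact mul_mem (hM.le ⟨b, rfl⟩) hg0
    have hcomm : ∀ (a : A8) (w : D1 → F), V F t (V F (ψ a) w) = V F (ψ (cj τ a)) (V F t w) := by
      intro a w
      rw [← Vm, ← Vm, ← htc]
      congr 2
      group
    -- `t²` acts as `±1`
    have htt : ad F (t * t) = 1 := by
      apply cent_one hM hL
      intro a
      have h1 : t * t * ψ a * (t * t)⁻¹ = t * (t * ψ a * t⁻¹) * t⁻¹ := by group
      rw [h1, htc, htc, ← cj_mul]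
      have h2 : τ * τ = 1 := swap_mul_self _ _
      rw [h2, cj_one]
    obtain ⟨e, he, het⟩ := V_pm htt
    obtain ⟨c, hc⟩ : ∃ c : F, c * c = e := by
      rcases mul_self_eq_one_iff.1 he with rfl | rfl
      · exact ⟨1, one_mul 1⟩
      · refine ⟨2, ?_⟩
        have h5 : (5 : F) = 0 := five_zero
        linear_combination h5
    have hc0 : c ≠ 0 := by
      rintro rfl
      rw [mul_zero] at hc
      rw [← hc, mul_zero] at he
      exact zero_ne_one he
    -- an eigenvector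
    obtain ⟨y', c', hy'0, hy', hty⟩ : ∃ (y' : D1 → F) (c' : F), y' ≠ 0 ∧
        (∀ g : A8, (g : Perm (Fin 8)) 7 = 7 → V F (ψ g) y' = y') ∧ V F t y' = c' • y' := by
      by_cases h1 : V F t y + c • y = 0
      · refine ⟨y, -c, hy0, hy, ?_⟩
        rw [neg_smul]
        exact eq_neg_of_add_eq_zero_left h1
      · refine ⟨V F t y + c • y, c, h1, fun g hg => ?_, ?_⟩
        · rw [map_add, map_smul, hy g hg]
          congr 1
          have h2 : g = cj τ (cj τ g) := by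
            rw [← cj_mul]
            have h2 : τ * τ = 1 := swap_mul_self _ _
            rw [h2, cj_one]
          rw [h2, ← hcomm, hy]
          show (τ * g * τ⁻¹ : Perm (Fin 8)) 7 = 7
          have h3 : τ⁻¹ = τ := swap_inv _ _
          rw [h3, Perm.mul_apply, Perm.mul_apply, hτ7, hg, hτ7]
        · rw [map_add, map_smul, ← Vm, het, ← hc, smul_add, smul_smul, add_comm]
    obtain ⟨v, hv7, hv⟩ := family1 (ρ := MonoidHom.comp (V F) ψ) hy'
    have hv' : ∀ (g : A8) (i : Fin 8), V F (ψ g) (v i) = v ((g : Perm (Fin 8)) i) := hv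
    have hvt : ∀ i, V F t (v i) = c' • v (τ i) := by
      intro i
      obtain ⟨g, hg⟩ := trL (l := [7]) (l' := [i]) (by simp) (by simp) rfl (by simp)
      have hg' : (g : Perm (Fin 8)) 7 = i := by simpa using hg
      have h1 : v i = V F (ψ g) y' := by rw [← hv7, hv', hg']
      rw [h1, hcomm, hty, map_smul, ← hv7, hv']
      congr 2
      show (τ * g * τ⁻¹ : Perm (Fin 8)) 7 = τ i
      have h3 : τ⁻¹ = τ := swap_inv _ _
      rw [h3, Perm.mul_apply, Perm.mul_apply, hτ7, hg']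
    refine ⟨v, by rw [hv7]; exact hy'0, hv, red v fun g hg i => ?_⟩
    obtain ⟨σ, hσ⟩ := conj_perm hM hL hg
    rcases Int.units_eq_one_or (Perm.sign σ) with h | h
    · obtain ⟨a, -, ha⟩ := even_case g σ hσ h
      obtain ⟨e', -, he'⟩ := V_pm ha
      refine ⟨(a : Perm (Fin 8)) i, e', ?_⟩
      have h1 : g = ψ a * ((ψ a)⁻¹ * g) := by group
      rw [h1, Vm, he', map_smul, hv']
    · obtain ⟨a, -, ha⟩ := even_case (g * t⁻¹) (σ * τ) (fun a => by
        have h1 : g * t⁻¹ * ψ a * (g * t⁻¹)⁻¹ = g * (t⁻¹ * ψ a * t) * g⁻¹ := by group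
        have h2 : t⁻¹ * ψ a * t = ψ (cj τ a) := by
          have h3 : ψ a = t * ψ (cj τ a) * t⁻¹ := by
            rw [htc, ← cj_mul]
            have h2 : τ * τ = 1 := swap_mul_self _ _
            rw [h2, cj_one]
          rw [h3]; group
        rw [h1, h2, hσ, ← cj_mul]) (by rw [Perm.sign_mul, h, hτs]; rfl)
      obtain ⟨e', -, he'⟩ := V_pm ha
      refine ⟨(a : Perm (Fin 8)) (τ i), c' * e', ?_⟩
      have h1 : g = ψ a * (((ψ a)⁻¹ * (g * t⁻¹)) * t) := by group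
      rw [h1, Vm, Vm, he', hvt, map_smul, map_smul, hv', smul_smul, mul_comm]

end Cfsg.Agent.R2.PX.A
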